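-- helper61: normal p'-subgroups inside all p'-degree kernels have no fixed points of P (for S4591).
import Mathlib
import Cfsg.Prelude.Def_Characters
import Cfsg.Agent.Lib.Helper80.CharOps
import Cfsg.Agent.Lib.Helper80.CharKer
import Cfsg.Agent.Lib.Helper80.Orthogonality
import Cfsg.Agent.Lib.Helper15.OddDeg
import Cfsg.Agent.Lib.Helper75.Glaub8
import Cfsg.Agent.Lib.Helper75.CliffordCorr
import Cfsg.Agent.Lib.Helper81.GallRel
import Cfsg.Agent.Lib.Helper82.CharCount
import Cfsg.Agent.Lib.Helper61.PK.Ker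

set_option autoImplicit false
set_option linter.style.haveILetI false

namespace Cfsg.Agent.Lib.Helper61.PK

open Cfsg.Agent.Lib.Helper80

universe u

/-- An irreducible character which is constant is the trivial character. -/
theorem eq_one_of_const {H : Type u} [Group H] [Fintype H] {θ : H → ℂ}
    (hθ : Cfsg.IsIrrCharacter H θ) (hc : ∀ h : H, θ h = θ 1) : θ = fun _ => (1 : ℂ) := by
  by_contra hne
  have h1 := classInner_irr_fun hθ (isIrrCharacter_one (G := H))
  rw [if_neg hne] at h1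
  unfold Cfsg.classInner at h1
  have h2 : ∑ g : H, θ g * (starRingEnd ℂ) ((fun _ => (1 : ℂ)) g) = (Nat.card H : ℂ) * θ 1 := by
    simp only [map_one, mul_one]
    rw [Finset.sum_congr rfl (fun g _ => hc g), Finset.sum_const, Finset.card_univ,
      nsmul_eq_mul, Nat.card_eq_fintype_card]
  rw [h2] at h1
  have hcard : (Nat.card H : ℂ) ≠ 0 := by exact_mod_cast Nat.card_pos.ne'
  rw [← mul_assoc, inv_mul_cancel₀ hcard, one_mul] at h1
  exact char_one_ne_zero hθ h1

/-- A normal `p'`-subgroup contained in the kernel of every irreducible character of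
`p'`-degree has no nontrivial fixed point of a Sylow `p`-subgroup. -/
theorem inf_centralizer_eq_bot {G : Type u} [Group G] [Finite G] (p : ℕ) [Fact p.Prime]
    (P : Sylow p G) (M : Subgroup G) [hMn : M.Normal] (hM : ¬ p ∣ Nat.card M)
    (hker : ∀ χ : Cfsg.IrrCharacter G, ¬ p ∣ Cfsg.charDegree (χ : G → ℂ) →
      ∀ m ∈ M, (χ : G → ℂ) m = (χ : G → ℂ) 1) :
    M ⊓ Subgroup.centralizer ((P : Subgroup G) : Set G) = ⊥ := by
  classical
  haveI : Fintype G := Fintype.ofFinite G
  haveI : Fintype M := Fintype.ofFinite M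
  have hp : p.Prime := Fact.out
  by_contra hne
  have hcopMP : (Nat.card M).Coprime (Nat.card (P : Subgroup G)) := by
    obtain ⟨n, hn⟩ := IsPGroup.iff_card.mp P.isPGroup'
    rw [hn]
    exact Nat.Coprime.pow_right n ((Nat.Prime.coprime_iff_not_dvd hp).mpr hM).symm
  have hsolv : Group.IsSolvable (P : Subgroup G) := by
    haveI := P.isPGroup'.isNilpotent
    exact IsNilpotent.to_isSolvable
  have hcount := Cfsg.Agent.Lib.Helper75.card_inv_irr_eq_solvable M (P : Subgroup G)
    (fun s _ g hg => hMn.conj_mem g hg s) hcopMP hsolv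
  have hcc : 1 < Nat.card (Cfsg.IrrCharacter
      ↥(M ⊓ Subgroup.centralizer ((P : Subgroup G) : Set G))) := by
    rw [Cfsg.Agent.Lib.Helper82.card_irr_eq_card_conjClasses]
    haveI : Nontrivial ↥(M ⊓ Subgroup.centralizer ((P : Subgroup G) : Set G)) :=
      (Subgroup.nontrivial_iff_ne_bot _).mpr hne
    obtain ⟨c, hc⟩ := exists_ne (1 : ↥(M ⊓ Subgroup.centralizer ((P : Subgroup G) : Set G)))
    rw [Finite.one_lt_card_iff_nontrivial]
    refine nontrivial_of_ne (ConjClasses.mk c) (ConjClasses.mk 1) ?_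
    intro h
    rw [ConjClasses.mk_eq_mk_iff_isConj, isConj_one_left] at h
    exact hc h
  obtain ⟨θ, hθinv, hθne⟩ : ∃ θ : Cfsg.IrrCharacter M,
      Cfsg.Agent.Lib.Helper75.InvS M (P : Subgroup G) (θ : M → ℂ) ∧
        (θ : M → ℂ) ≠ fun _ => (1 : ℂ) := by
    have hnt : Nontrivial {χ : Cfsg.IrrCharacter M //
        Cfsg.Agent.Lib.Helper75.InvS M (P : Subgroup G) (χ : M → ℂ)} := by
      rw [← Finite.one_lt_card_iff_nontrivial, hcount]
      exact hcc
    obtain ⟨a, b, hab⟩ := hnt
    by_cases ha : (a.1 : M → ℂ) = fun _ => (1 : ℂ)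
    · refine ⟨b.1, b.2, fun hb => hab ?_⟩
      exact Subtype.ext (Subtype.ext (ha.trans hb.symm))
    · exact ⟨a.1, a.2, ha⟩
  set T : Subgroup G := M ⊔ (P : Subgroup G) with hT
  haveI : Fintype T := Fintype.ofFinite T
  have hMT : M ≤ T := le_sup_left
  have hPT : (P : Subgroup G) ≤ T := le_sup_right
  have hTin : T ≤ Cfsg.Agent.Lib.Helper75.inertia M (θ : M → ℂ) := by
    apply sup_le
    · exact Cfsg.Agent.Lib.Helper75.le_inertia M
        (fun g h => char_conj_eq (isCharacter_of_isIrrCharacter θ.2) g h)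
    · intro s hs
      rw [Cfsg.Agent.Lib.Helper75.mem_inertia_iff']
      intro n
      exact hθinv s hs n ⟨s * n * s⁻¹, hMn.conj_mem n n.2 s⟩ rfl
  have hrel : (M.relIndex T).Coprime (Nat.card M) := by
    have h1 : M.relIndex T = M.relIndex (P : Subgroup G) :=
      Subgroup.relIndex_sup_left (P : Subgroup G) M
    rw [h1]
    exact Nat.Coprime.coprime_dvd_left (Subgroup.relIndex_dvd_card M (P : Subgroup G))
      hcopMP.symm
  obtain ⟨θ', hθ', hθ'res, -⟩ := Cfsg.Agent.Lib.Helper81.exists_inv_extension T M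
    (⊥ : Subgroup (MulAut G))
    (fun a ha t ht => by rw [Subgroup.mem_bot] at ha; subst ha; simpa using ht)
    (fun a ha q hq => by rw [Subgroup.mem_bot] at ha; subst ha; simpa using hq)
    hMT (fun t _ q hq => hMn.conj_mem q hq t) hrel θ.2
    (fun t ht q h => (Cfsg.Agent.Lib.Helper75.mem_inertia_iff' M (θ : M → ℂ) t).mp (hTin ht) q)
    (fun a ha g h => by rw [Subgroup.mem_bot] at ha; subst ha; exact congrArg _ (Subtype.ext rfl))
  have hone : θ' 1 = (θ : M → ℂ) 1 := (congrArg θ' (Subtype.ext rfl)).trans (hθ'res 1)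
  have hdegeq : Cfsg.charDegree θ' = Cfsg.charDegree (θ : M → ℂ) := by
    have h1 := char_one_eq_charDegree (isCharacter_of_isIrrCharacter hθ')
    have h2 := char_one_eq_charDegree (isCharacter_of_isIrrCharacter θ.2)
    have h3 := hone
    rw [h1, h2] at h3
    exact_mod_cast h3
  have hdeg' : ¬ p ∣ Cfsg.charDegree θ' := by
    rw [hdegeq]
    intro h
    exact hM (h.trans (charDegree_dvd_card θ.2))
  have hidx : ¬ p ∣ T.index := fun h => P.not_dvd_index (h.trans (Subgroup.index_dvd_of_le hPT))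
  obtain ⟨χ, hχdeg, hχc⟩ := Cfsg.Agent.Lib.Helper15.od_exists_over p T hidx hθ' hdeg'
  have hres : Cfsg.IsCharacter T (fun n : T => (χ : G → ℂ) n) :=
    isCharacter_comp T.subtype (isCharacter_of_isIrrCharacter χ.2)
  have hconst : ∀ m : M, (θ : M → ℂ) m = (θ : M → ℂ) 1 := by
    intro m
    have hxy : (fun n : T => (χ : G → ℂ) n) ⟨m, hMT m.2⟩ = (fun n : T => (χ : G → ℂ) n) 1 :=
      hker χ hχdeg m m.2
    have h1 := constituent_ker hres hθ' hχc hxy
    rw [hθ'res m] at h1
    rw [h1]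
    exact hone
  exact hθne (eq_one_of_const θ.2 hconst)

end Cfsg.Agent.Lib.Helper61.PK
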