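-- helper61: kernels of constituents (for S4591).
import Mathlib
import Cfsg.Prelude.Def_Characters
import Cfsg.Agent.Lib.Helper80.CharOps
import Cfsg.Agent.Lib.Helper80.CharKer

set_option autoImplicit false

namespace Cfsg.Agent.Lib.Helper61.PK

open Cfsg.Agent.Lib.Helper80

universe u

/-- If a character `φ` takes its degree at `x`, so does every irreducible constituent. -/
theorem constituent_ker {H : Type u} [Group H] [Fintype H] {φ θ : H → ℂ}
    (hφ : Cfsg.IsCharacter H φ) (hθ : Cfsg.IsIrrCharacter H θ)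
    (hc : Cfsg.classInner φ θ ≠ 0) {x : H} (hx : φ x = φ 1) : θ x = θ 1 := by
  classical
  haveI : Fintype (Cfsg.IrrCharacter H) := Fintype.ofFinite _
  obtain ⟨m, hm, hsum⟩ := character_expansion hφ
  have hval : ∀ g : H, φ g = ∑ χ : Cfsg.IrrCharacter H, (m χ : ℂ) * (χ : H → ℂ) g := by
    intro g
    have h := congrFun hsum g
    rw [h]
    simp [Finset.sum_apply, Pi.smul_apply, smul_eq_mul]
  have hdeg : ∀ χ : Cfsg.IrrCharacter H, (χ : H → ℂ) 1 = (Cfsg.charDegree (χ : H → ℂ) : ℂ) :=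
    fun χ => char_one_eq_charDegree (isCharacter_of_isIrrCharacter χ.2)
  have hle : ∀ χ : Cfsg.IrrCharacter H,
      ((χ : H → ℂ) x).re ≤ (Cfsg.charDegree (χ : H → ℂ) : ℝ) := fun χ =>
    (Complex.re_le_norm _).trans (norm_char_le_charDegree (isCharacter_of_isIrrCharacter χ.2) x)
  have h0 : ∑ χ : Cfsg.IrrCharacter H,
      (m χ : ℝ) * ((Cfsg.charDegree (χ : H → ℂ) : ℝ) - ((χ : H → ℂ) x).re) = 0 := by
    have h1 := hval x
    have h2 := hval 1
    rw [hx, h2] at h1
    have h3 := congrArg Complex.re h1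
    rw [Complex.re_sum, Complex.re_sum] at h3
    have h4 : ∀ χ : Cfsg.IrrCharacter H, ((m χ : ℂ) * (χ : H → ℂ) 1).re =
        (m χ : ℝ) * (Cfsg.charDegree (χ : H → ℂ) : ℝ) := by
      intro χ
      rw [hdeg χ]
      simp
    have h5 : ∀ χ : Cfsg.IrrCharacter H, ((m χ : ℂ) * (χ : H → ℂ) x).re =
        (m χ : ℝ) * ((χ : H → ℂ) x).re := by
      intro χ
      simp
    simp only [h4, h5] at h3
    simp only [mul_sub, Finset.sum_sub_distrib]
    linarith
  have hterm := (Finset.sum_eq_zero_iff_of_nonneg (fun χ _ =>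
    mul_nonneg (Nat.cast_nonneg (m χ)) (sub_nonneg.mpr (hle χ)))).mp h0
  have hmθ : m ⟨θ, hθ⟩ ≠ 0 := by
    intro h
    apply hc
    have := hm ⟨θ, hθ⟩
    rw [this, h]
    simp
  have h6 := hterm ⟨θ, hθ⟩ (Finset.mem_univ _)
  have h7 : (Cfsg.charDegree θ : ℝ) - (θ x).re = 0 := by
    rcases mul_eq_zero.mp h6 with h | h
    · exact absurd (by exact_mod_cast h) hmθ
    · exact h
  have hnorm : ‖θ x‖ ≤ (Cfsg.charDegree θ : ℝ) :=
    norm_char_le_charDegree (isCharacter_of_isIrrCharacter hθ) x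
  have hre : (θ x).re = (Cfsg.charDegree θ : ℝ) := by linarith
  have him : (θ x).im = 0 := by
    have h8 : ‖θ x‖ ^ 2 = (θ x).re * (θ x).re + (θ x).im * (θ x).im := by
      rw [Complex.sq_norm, Complex.normSq_apply]
    have h9 : ‖θ x‖ ^ 2 ≤ (Cfsg.charDegree θ : ℝ) ^ 2 :=
      pow_le_pow_left₀ (norm_nonneg _) hnorm 2
    rw [h8, hre] at h9
    nlinarith [mul_self_nonneg (θ x).im]
  have h10 : θ x = (Cfsg.charDegree θ : ℂ) := by
    apply Complex.ext
    · rw [hre]; simp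
    · rw [him]; simp
  rw [h10]
  exact (hdeg ⟨θ, hθ⟩).symm

end Cfsg.Agent.Lib.Helper61.PK
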