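-- helper61: linear characters of a Sylow subgroup and p'-degree characters (for S4591).
import Mathlib
import Cfsg.Prelude.Def_Characters
import Cfsg.Agent.Lib.Helper80.CharOps
import Cfsg.Agent.Lib.Helper80.CharKer
import Cfsg.Agent.Lib.Helper15.OddDeg
import Cfsg.Agent.Lib.Helper74.TwoDeg
import Cfsg.Agent.S0154
import Cfsg.Agent.Lib.Helper61.PK.Ker

set_option autoImplicit false
set_option linter.style.haveILetI false

namespace Cfsg.Agent.Lib.Helper61.PK

open Cfsg.Agent.Lib.Helper80

universe u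

/-- An element of the Sylow `p`-subgroup `P` lying in the kernel of every irreducible character
of `p'`-degree lies in the derived subgroup of `P`. -/
theorem mem_commutator_of_ker {G : Type u} [Group G] [Finite G] (p : ℕ) [Fact p.Prime]
    (P : Sylow p G) {x : G} (hxP : x ∈ (P : Subgroup G))
    (hx : ∀ χ : Cfsg.IrrCharacter G, ¬ p ∣ Cfsg.charDegree (χ : G → ℂ) →
      (χ : G → ℂ) x = (χ : G → ℂ) 1) :
    x ∈ ⁅(P : Subgroup G), (P : Subgroup G)⁆ := by
  classical
  haveI : Fintype G := Fintype.ofFinite G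
  haveI : Fintype (P : Subgroup G) := Fintype.ofFinite _
  have hp : p.Prime := Fact.out
  by_contra hne
  set y : (P : Subgroup G) := ⟨x, hxP⟩ with hy
  have hy' : y ∉ commutator (P : Subgroup G) := by
    intro h
    apply hne
    rw [← Subgroup.map_subtype_commutator]
    exact ⟨y, h, rfl⟩
  have ha : (Abelianization.of y : Abelianization (P : Subgroup G)) ≠ 1 := by
    intro h
    apply hy'
    rw [← Abelianization.ker_of, MonoidHom.mem_ker]
    exact h
  obtain ⟨lam, hlam⟩ := Cfsg.Agent.Lib.Helper74.exists_lin_ne_one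
    (A := Abelianization (P : Subgroup G)) (fun a b => mul_comm a b) _ ha
  set f : (P : Subgroup G) →* ℂˣ := lam.comp Abelianization.of with hf
  have hθ : Cfsg.IsIrrCharacter (P : Subgroup G) (fun g => ((f g : ℂˣ) : ℂ)) :=
    Cfsg.Agent.S0154.isIrrCharacter_of_hom f
  have hdeg1 : Cfsg.charDegree (fun g : (P : Subgroup G) => ((f g : ℂˣ) : ℂ)) = 1 := by
    have h := char_one_eq_charDegree (isCharacter_of_isIrrCharacter hθ)
    simp only [map_one, Units.val_one] at h
    exact_mod_cast h.symm
  have hdeg : ¬ p ∣ Cfsg.charDegree (fun g : (P : Subgroup G) => ((f g : ℂˣ) : ℂ)) := by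
    rw [hdeg1]
    exact hp.one_lt.ne' ∘ Nat.dvd_one.mp
  obtain ⟨χ, hχdeg, hχc⟩ := Cfsg.Agent.Lib.Helper15.od_exists_over p (P : Subgroup G)
    P.not_dvd_index hθ hdeg
  have hres : Cfsg.IsCharacter (P : Subgroup G) (fun n : (P : Subgroup G) => (χ : G → ℂ) n) :=
    isCharacter_comp (P : Subgroup G).subtype (isCharacter_of_isIrrCharacter χ.2)
  have hxy : (fun n : (P : Subgroup G) => (χ : G → ℂ) n) y =
      (fun n : (P : Subgroup G) => (χ : G → ℂ) n) 1 := hx χ hχdeg
  have h1 := constituent_ker hres hθ hχc hxy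
  simp only [map_one, Units.val_one] at h1
  apply hlam
  have h2 : f y = 1 := Units.ext h1
  exact h2

end Cfsg.Agent.Lib.Helper61.PK
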